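import Mathlib

/-!
Tools for the theorems of Livingstone and Wagner.
-/

set_option autoImplicit false

namespace CfsgLib.LW54

open MulAction
open scoped Pointwise

variable {G α : Type*} [Group G] [MulAction G α]

/-- Every injective map on at most `k` points is induced. -/
def KT (G α : Type*) [Group G] [MulAction G α] (k : ℕ) : Prop :=
  ∀ (Γ : Finset α) (f : α → α), Γ.card ≤ k → Set.InjOn f Γ → ∃ g : G, ∀ a ∈ Γ, g • a = f a

theorem KT.mono {j k : ℕ} (h : KT G α k) (hjk : j ≤ k) : KT G α j :=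
  fun Γ f hΓ hf => h Γ f (hΓ.trans hjk) hf

theorem KT.perm {k : ℕ} (h : KT G α k) {Γ : Finset α} (hΓ : Γ.card ≤ k) (σ : Equiv.Perm α) :
    ∃ g : G, ∀ a ∈ Γ, g • a = σ a := h Γ σ hΓ σ.injective.injOn

variable [Fintype α] [DecidableEq α]

theorem kt_of_pretransitive {k : ℕ} (h : IsMultiplyPretransitive G α k) (hk : k ≤ Fintype.card α) :
    KT G α k := by
  intro Γ f hΓ hf
  haveI := h
  haveI : IsMultiplyPretransitive G α Γ.card :=
    isMultiplyPretransitive_of_le hΓ (by rw [Nat.card_eq_fintype_card]; exact hk)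
  let x : Fin Γ.card ↪ α := Γ.equivFin.symm.toEmbedding.trans (Function.Embedding.subtype _)
  let y : Fin Γ.card ↪ α := ⟨fun i => f (x i), fun i j hij => x.injective
    (hf (Γ.equivFin.symm i).2 (Γ.equivFin.symm j).2 hij)⟩
  obtain ⟨g, hg⟩ := exists_smul_eq G x y
  refine ⟨g, fun a ha => ?_⟩
  have := DFunLike.congr_fun hg (Γ.equivFin ⟨a, ha⟩)
  simpa [x, y] using this

theorem pretransitive_of_kt {k : ℕ} (h : KT G α k) : IsMultiplyPretransitive G α k := by
  classical
  refine ⟨fun x y => ?_⟩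
  rcases isEmpty_or_nonempty (Fin k) with hk | hk
  · exact ⟨1, Function.Embedding.ext fun i => hk.elim i⟩
  obtain ⟨g, hg⟩ := h (Finset.univ.map x) (fun a => y (Function.invFun x a))
    (by simp) (by
      intro a ha b hb hab
      simp only [Finset.coe_map, Finset.coe_univ, Set.image_univ, Set.mem_range] at ha hb
      obtain ⟨i, rfl⟩ := ha
      obtain ⟨j, rfl⟩ := hb
      simp only [Function.leftInverse_invFun x.injective i,
        Function.leftInverse_invFun x.injective j] at hab
      rw [y.injective hab])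
  refine ⟨g, Function.Embedding.ext fun i => ?_⟩
  rw [Function.Embedding.smul_apply, hg _ (Finset.mem_map_of_mem x (Finset.mem_univ i)),
    Function.leftInverse_invFun x.injective i]

/-- Fixed points. -/
def fix (g : G) : Finset α := Finset.univ.filter fun x => g • x = x

theorem mem_fix {g : G} {x : α} : x ∈ (fix g : Finset α) ↔ g • x = x := by simp [fix]

theorem smul_mem_fix_of_commute {g x : G} (h : Commute g x) {a : α} (ha : a ∈ fix g) :
    x • a ∈ fix g := by
  rw [mem_fix] at ha ⊢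
  rw [← mul_smul, h.eq, mul_smul, ha]

theorem fix_conj (g x : G) : (fix (g * x * g⁻¹) : Finset α) = (fix x).image (g • ·) := by
  ext a
  simp only [mem_fix, Finset.mem_image, mul_smul]
  exact ⟨fun h => ⟨g⁻¹ • a, by rwa [← smul_left_cancel_iff g, smul_inv_smul], smul_inv_smul g a⟩,
    by rintro ⟨b, hb, rfl⟩; rw [inv_smul_smul, hb]⟩

theorem card_fix_conj (g x : G) : (fix (g * x * g⁻¹) : Finset α).card = (fix x : Finset α).card := by
  rw [fix_conj, Finset.card_image_of_injective _ (MulAction.injective g)]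

theorem card_fix_modEq {p i : ℕ} (hp : p.Prime) {g : G} (hg : g ^ p ^ i = 1) :
    (fix g : Finset α).card ≡ Fintype.card α [MOD p] := by
  haveI := Fact.mk hp
  have h := Equiv.Perm.card_compl_support_modEq (p := p) (n := i) (σ := MulAction.toPermHom G α g)
    (by rw [← map_pow, hg, map_one])
  convert h using 2
  ext a
  simp [mem_fix, Equiv.Perm.mem_support]

theorem fix_parity {g : G} (hg : g * g = 1) :
    (fix g : Finset α).card % 2 = Fintype.card α % 2 :=
  card_fix_modEq (i := 1) Nat.prime_two (by rw [pow_one, pow_two, hg])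

omit [Fintype α] [DecidableEq α] in
theorem mem_fixing {Γ : Finset α} {g : G} :
    g ∈ fixingSubgroup G (Γ : Set α) ↔ ∀ a ∈ Γ, g • a = a := by
  simp [mem_fixingSubgroup_iff]

omit [Fintype α] in
theorem conj_mem_fixing {Γ : Finset α} {g x : G} (hx : x ∈ fixingSubgroup G (Γ : Set α)) :
    g * x * g⁻¹ ∈ fixingSubgroup G ((Γ.image (g • ·) : Finset α) : Set α) := by
  rw [mem_fixing] at hx ⊢
  intro a ha
  obtain ⟨b, hb, rfl⟩ := Finset.mem_image.mp ha
  rw [mul_smul, mul_smul, inv_smul_smul, hx b hb]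

omit [Fintype α] in
theorem card_fixing_image (g : G) (Γ : Finset α) :
    Nat.card (fixingSubgroup G ((Γ.image (g • ·) : Finset α) : Set α)) =
      Nat.card (fixingSubgroup G (Γ : Set α)) := by
  refine (Nat.card_congr ((MulAut.conj g).toEquiv.subtypeEquiv fun x => ⟨fun hx => conj_mem_fixing hx,
    fun hx => mem_fixing.mpr fun a ha => ?_⟩)).symm
  have := mem_fixing.mp hx _ (Finset.mem_image_of_mem (g • ·) ha)
  simpa [mul_smul] using this

theorem KT.card_fixing_eq {k : ℕ} (h : KT G α k) {Γ Γ' : Finset α} (hc : Γ.card = Γ'.card)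
    (hΓ : Γ.card ≤ k) :
    Nat.card (fixingSubgroup G (Γ : Set α)) = Nat.card (fixingSubgroup G (Γ' : Set α)) := by
  classical
  rcases isEmpty_or_nonempty α with hα | hα
  · rw [Subsingleton.elim Γ Γ']
  obtain ⟨σ, hσ⟩ : ∃ σ : Equiv.Perm α, Γ.image σ = Γ' := by
    refine ⟨(Finset.equivOfCardEq hc).extendSubtype, ?_⟩
    refine Finset.eq_of_subset_of_card_le (fun a ha => ?_) ?_
    · obtain ⟨b, hb, rfl⟩ := Finset.mem_image.mp ha
      rw [Equiv.extendSubtype_apply_of_mem _ b hb]
      exact ((Finset.equivOfCardEq hc) ⟨b, hb⟩).2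
    · rw [Finset.card_image_of_injective _ (Equiv.injective _), hc]
  obtain ⟨g, hg⟩ := h.perm hΓ σ
  rw [← hσ, show Γ.image σ = Γ.image (g • ·) from Finset.image_congr fun a ha => (hg a ha).symm,
    card_fixing_image]

/-- Elements with the same effect on `Γ` form at most one coset. -/
theorem card_agree_le [Finite G] {Γ : Finset α} {I : Finset G}
    (h : ∀ g ∈ I, ∀ g' ∈ I, ∀ a ∈ Γ, g • a = g' • a) :
    I.card ≤ Nat.card (fixingSubgroup G (Γ : Set α)) := by
  classical
  rcases I.eq_empty_or_nonempty with rfl | ⟨g₀, hg₀⟩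
  · simp
  rw [← Nat.card_eq_finsetCard]
  refine Nat.card_le_card_of_injective
    (fun g => ⟨g₀⁻¹ * g.1, mem_fixing.mpr fun a ha => ?_⟩) (fun g g' hgg => ?_)
  · rw [mul_smul, ← h g₀ hg₀ g.1 g.2 a ha, inv_smul_smul]
  · exact Subtype.ext (mul_left_cancel (congrArg Subtype.val hgg))

theorem eq_of_agree [Finite G] {Γ : Finset α} (h1 : Nat.card (fixingSubgroup G (Γ : Set α)) = 1)
    {g g' : G} (h : ∀ a ∈ Γ, g • a = g' • a) : g = g' := by
  have hmem : g'⁻¹ * g ∈ fixingSubgroup G (Γ : Set α) :=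
    mem_fixing.mpr fun a ha => by rw [mul_smul, h a ha, inv_smul_smul]
  rw [Subgroup.card_eq_one.mp h1, Subgroup.mem_bot] at hmem
  exact (inv_mul_eq_one.mp hmem).symm

/-- An involution in a coset of a fixing subgroup of odd order. -/
theorem exists_involution [Finite G] {Γ : Finset α}
    (hodd : Odd (Nat.card (fixingSubgroup G (Γ : Set α)))) {g : G}
    (hg : ∀ a ∈ Γ, g • g • a = a) : ∃ u : G, u * u = 1 ∧ ∀ a ∈ Γ, u • a = g • a := by
  have hgg : g * g ∈ fixingSubgroup G (Γ : Set α) :=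
    mem_fixing.mpr fun a ha => by rw [mul_smul, hg a ha]
  obtain ⟨i, hi⟩ := hodd.of_dvd_nat (Subgroup.orderOf_dvd_natCard _ hgg)
  refine ⟨g * (g * g) ^ i, ?_, fun a ha => ?_⟩
  · have hc : Commute g ((g * g) ^ i) := ((Commute.refl g).mul_right (Commute.refl g)).pow_right i
    rw [hc.symm.mul_mul_mul_comm g, ← pow_add, ← pow_succ', show i + i + 1 = orderOf (g * g) by omega,
      pow_orderOf_eq_one]
  · rw [mul_smul, mem_fixing.mp (pow_mem hgg i) a ha]

/-- Double counting of moved points. -/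
theorem count_moved {W : Finset α} {I : Finset G} {f h : ℕ}
    (hW : ∀ g ∈ I, ∀ c ∈ W, g • c ∈ W) (hf : ∀ g ∈ I, (W.filter fun c => g • c ≠ c).card = f) :
    ((∀ cd ∈ W.offDiag, (I.filter fun g => g • cd.1 = cd.2).card ≤ h) →
      f * I.card ≤ W.card * (W.card - 1) * h) ∧
    ((∀ cd ∈ W.offDiag, h ≤ (I.filter fun g => g • cd.1 = cd.2).card) →
      W.card * (W.card - 1) * h ≤ f * I.card) := by
  classical
  have hsum : f * I.card = ∑ cd ∈ W.offDiag, (I.filter fun g => g • cd.1 = cd.2).card := by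
    have h1 := Finset.sum_card_bipartiteAbove_eq_sum_card_bipartiteBelow
      (fun (g : G) (cd : α × α) => g • cd.1 = cd.2) (s := I) (t := W.offDiag)
    simp only [Finset.bipartiteBelow] at h1
    rw [← h1, mul_comm, ← smul_eq_mul, ← Finset.sum_const]
    refine Finset.sum_congr rfl fun g hg => ?_
    rw [← hf g hg, Finset.bipartiteAbove]
    refine Finset.card_nbij' (fun c => (c, g • c)) Prod.fst ?_ ?_ ?_ ?_
    · intro c hc
      simp only [Finset.coe_filter, Set.mem_ofPred_eq] at hc
      simp only [Finset.coe_filter, Set.mem_ofPred_eq, Finset.mem_offDiag]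
      exact ⟨⟨hc.1, hW g hg c hc.1, Ne.symm hc.2⟩, trivial⟩
    · intro cd hcd
      simp only [Finset.coe_filter, Set.mem_ofPred_eq, Finset.mem_offDiag] at hcd
      simp only [Finset.coe_filter, Set.mem_ofPred_eq]
      exact ⟨hcd.1.1, by rw [hcd.2]; exact Ne.symm hcd.1.2.2⟩
    · intro c _; rfl
    · intro cd hcd
      simp only [Finset.coe_filter, Set.mem_ofPred_eq] at hcd
      exact Prod.ext rfl hcd.2
  have hcard : W.offDiag.card = W.card * (W.card - 1) := by
    rw [Finset.offDiag_card, Nat.mul_sub, mul_one]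
  refine ⟨fun hb => ?_, fun hb => ?_⟩
  · rw [hsum, ← hcard, ← smul_eq_mul]
    exact Finset.sum_le_card_nsmul _ _ _ hb
  · rw [hsum, ← hcard, ← smul_eq_mul]
    exact Finset.card_nsmul_le_sum _ _ _ hb

/-- Double counting of fixed pairs. -/
theorem count_fixed {W : Finset α} {I : Finset G} {r l : ℕ}
    (hr : ∀ g ∈ I, (W.filter fun c => g • c = c).card = r) :
    ((∀ P ∈ W.powersetCard 2, l ≤ (I.filter fun g => ∀ c ∈ P, g • c = c).card) →
      W.card.choose 2 * l ≤ r.choose 2 * I.card) ∧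
    ((∀ P ∈ W.powersetCard 2, (I.filter fun g => ∀ c ∈ P, g • c = c).card ≤ l) →
      r.choose 2 * I.card ≤ W.card.choose 2 * l) := by
  classical
  have hsum : r.choose 2 * I.card =
      ∑ P ∈ W.powersetCard 2, (I.filter fun g => ∀ c ∈ P, g • c = c).card := by
    have h1 := Finset.sum_card_bipartiteAbove_eq_sum_card_bipartiteBelow
      (fun (g : G) (P : Finset α) => ∀ c ∈ P, g • c = c) (s := I) (t := W.powersetCard 2)
    simp only [Finset.bipartiteBelow] at h1
    rw [← h1, mul_comm, ← smul_eq_mul, ← Finset.sum_const]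
    refine Finset.sum_congr rfl fun g hg => ?_
    rw [← hr g hg, ← Finset.card_powersetCard, Finset.bipartiteAbove]
    congr 1
    ext P
    simp only [Finset.mem_powersetCard, Finset.mem_filter, Finset.subset_iff]
    exact ⟨fun h => ⟨⟨fun x hx => (h.1 hx).1, h.2⟩, fun x hx => (h.1 hx).2⟩,
      fun h => ⟨fun x hx => ⟨h.1.1 hx, h.2 x hx⟩, h.1.2⟩⟩
  refine ⟨fun hb => ?_, fun hb => ?_⟩
  · rw [hsum, ← Finset.card_powersetCard, ← smul_eq_mul]
    exact Finset.card_nsmul_le_sum _ _ _ hb
  · rw [hsum, ← Finset.card_powersetCard, ← smul_eq_mul]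
    exact Finset.sum_le_card_nsmul _ _ _ hb

end CfsgLib.LW54
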